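import Cfsg.Agent.H730.OZ.Defs
import Cfsg.Agent.H686.CharKit
import Cfsg.Agent.S0165

/-!
# S4842: tools for the rows of rank one (helper224)

* `zero_of_full` : an irreducible character whose degree is divisible by the full `r`-part of the group order vanishes
  at all `r`-singular elements;
* `not_of_two` : two zeros of different orders;
* `not_of_factors` : `|G| = A * C = B * E`, coprime factors, `A`, `B` divide the degree;
* `sub_one_dvd` : if all generators of a subgroup of prime order `r` are conjugate then `r - 1` divides `|G|`.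
-/

set_option autoImplicit false

open Cfsg Cfsg.Agent.H730.OZ

namespace Cfsg.Agent.H224.OZ

universe u

variable {G : Type u} [Group G] [Finite G]

theorem zero_of_full {χ : G → ℂ} (hχ : IsIrrCharacter G χ) {r : ℕ} (hr : r.Prime)
    (hfull : r ^ (Nat.card G).factorization r ∣ charDegree χ) {x : G} (hx : r ∣ orderOf x) : χ x = 0 := by
  have hd : ((charDegree χ : ℕ) : ℂ) = χ 1 := H686.CharKit.charDegree_cast (Characters.Core.isIrr_isCharacter hχ)
  obtain ⟨n, ρ, hρ, rfl⟩ := hχ
  rw [Representation.char_one] at hd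
  have h2 : charDegree ρ.character = Module.finrank ℂ (Fin n → ℂ) := by exact_mod_cast hd
  refine S0165.result ρ r ((Nat.card G).factorization r) hr (Nat.ordProj_dvd _ _)
    (Nat.pow_succ_factorization_not_dvd Nat.card_pos.ne' hr) ?_ x hx
  rw [← h2]
  exact hfull

omit [Finite G] in
theorem orderOf_isConj {x y : G} (h : IsConj x y) : orderOf x = orderOf y := by
  obtain ⟨c, rfl⟩ := isConj_iff.1 h
  exact (orderOf_injective (MulAut.conj c).toMonoidHom (MulAut.conj c).injective x).symm

omit [Finite G] in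
theorem not_of_nconj {χ : G → ℂ} {x y : G} (hx : χ x = 0) (hy : χ y = 0) (h : ¬ IsConj x y) : ¬ OneZero χ := by
  rintro ⟨z, -, hz⟩
  exact h ((hz x hx).symm.trans (hz y hy))

omit [Finite G] in
theorem not_of_two {χ : G → ℂ} {x y : G} (hx : χ x = 0) (hy : χ y = 0) (h : orderOf x ≠ orderOf y) : ¬ OneZero χ :=
  not_of_nconj hx hy fun hc => h (orderOf_isConj hc)

theorem full_dvd {n A B d r : ℕ} (hn : n = A * B) (hc : A.Coprime B) (hr : r.Prime) (hrA : r ∣ A) (hAd : A ∣ d) :
    r ^ n.factorization r ∣ d := by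
  have h1 : n.factorization r = A.factorization r := by
    rw [hn, Nat.factorization_mul_of_coprime hc, Finsupp.add_apply,
      Nat.factorization_eq_zero_of_not_dvd (n := B) (fun h => by
        have := Nat.dvd_gcd hrA h
        rw [hc] at this
        exact hr.one_lt.ne' (Nat.dvd_one.1 this)), add_zero]
  rw [h1]
  exact (Nat.ordProj_dvd A r).trans hAd

/-- all elements of order divisible by a prime divisor of `A` are zeros -/
theorem zero_of_factor {χ : G → ℂ} (hχ : IsIrrCharacter G χ) {A C : ℕ} (hA : Nat.card G = A * C) (hAC : A.Coprime C)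
    (hAd : A ∣ charDegree χ) {r : ℕ} (hr : r.Prime) (hrA : r ∣ A) {x : G} (hx : r ∣ orderOf x) : χ x = 0 :=
  zero_of_full hχ hr (full_dvd hA hAC hr hrA hAd) hx

theorem exists_order {r : ℕ} (hr : r.Prime) (h : r ∣ Nat.card G) : ∃ x : G, orderOf x = r := by
  have : Fact r.Prime := ⟨hr⟩
  exact exists_prime_orderOf_dvd_card' r h

/-- two different primes -/
theorem not_of_factors {χ : G → ℂ} (hχ : IsIrrCharacter G χ) {A C B E : ℕ} (hA : Nat.card G = A * C)
    (hAC : A.Coprime C) (hB : Nat.card G = B * E) (hBE : B.Coprime E) (hAd : A ∣ charDegree χ) (hBd : B ∣ charDegree χ)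
    {r s : ℕ} (hr : r.Prime) (hs : s.Prime) (hrs : r ≠ s) (hrA : r ∣ A) (hsB : s ∣ B) : ¬ OneZero χ := by
  obtain ⟨x, hx⟩ := exists_order (G := G) hr (by rw [hA]; exact dvd_mul_of_dvd_left hrA _)
  obtain ⟨y, hy⟩ := exists_order (G := G) hs (by rw [hB]; exact dvd_mul_of_dvd_left hsB _)
  refine not_of_two (zero_of_factor hχ hA hAC hAd hr hrA (x := x) (by rw [hx]))
    (zero_of_factor hχ hB hBE hBd hs hsB (x := y) (by rw [hy])) (by rw [hx, hy]; exact hrs)

/-- two coprime factors -/
theorem not_of_coprime {χ : G → ℂ} (hχ : IsIrrCharacter G χ) {A B E : ℕ} (hn : Nat.card G = A * B * E)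
    (hAB : A.Coprime B) (hAE : A.Coprime E) (hBE : B.Coprime E) (hAd : A ∣ charDegree χ) (hBd : B ∣ charDegree χ)
    (hA : 1 < A) (hB : 1 < B) : ¬ OneZero χ := by
  obtain ⟨r, hr, hrA⟩ := Nat.exists_prime_and_dvd hA.ne'
  obtain ⟨s, hs, hsB⟩ := Nat.exists_prime_and_dvd hB.ne'
  refine not_of_factors hχ (A := A) (C := B * E) (B := B) (E := A * E) (by rw [hn, mul_assoc])
    (Nat.Coprime.mul_right hAB hAE) (by rw [hn]; ring) (Nat.Coprime.mul_right hAB.symm hBE) hAd hBd hr hs ?_ hrA hsB
  rintro rfl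
  have := Nat.dvd_gcd hrA hsB
  rw [hAB] at this
  exact hr.one_lt.ne' (Nat.dvd_one.1 this)

/-- if all the elements of order `r` of `⟨z⟩` are conjugate then `r - 1` divides the group order -/
theorem sub_one_dvd {r : ℕ} (hr : r.Prime) {z : G} (hz : orderOf z = r)
    (h : ∀ y ∈ Subgroup.zpowers z, orderOf y = r → IsConj z y) : r - 1 ∣ Nat.card G := by
  set Z := Subgroup.zpowers z with hZ
  let f := Z.normalizerMonoidHom
  have hsurj : Function.Surjective f := by
    intro σ
    have hzZ : z ∈ Z := Subgroup.mem_zpowers z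
    have h1 : orderOf ((σ ⟨z, hzZ⟩ : Z) : G) = r := by
      rw [Subgroup.orderOf_coe, MulEquiv.orderOf_eq, Subgroup.orderOf_mk, hz]
    obtain ⟨g, hg⟩ := isConj_iff.1 (h _ (σ ⟨z, hzZ⟩).2 h1)
    have hcard : Nat.card Z = r := by rw [hZ, Nat.card_zpowers, hz]
    have hle : ∀ y ∈ Z, g * y * g⁻¹ ∈ Z := by
      intro y hy
      obtain ⟨k, rfl⟩ := Subgroup.mem_zpowers_iff.1 hy
      rw [← conj_zpow, hg]
      exact Z.zpow_mem (σ ⟨z, hzZ⟩).2 k
    have hgN : g ∈ Subgroup.normalizer (Z : Set G) := by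
      have h2 : Z.map (MulAut.conj g).toMonoidHom = Z := by
        apply Subgroup.eq_of_le_of_card_ge
        · rintro _ ⟨y, hy, rfl⟩
          exact hle y hy
        · rw [Nat.card_congr (Subgroup.equivMapOfInjective Z (MulAut.conj g).toMonoidHom (MulAut.conj g).injective).toEquiv]
      rw [Subgroup.mem_normalizer_iff]
      intro y
      refine ⟨hle y, fun hy => ?_⟩
      rw [← h2] at hy
      obtain ⟨y', hy', he⟩ := hy
      have : y' = y := (MulAut.conj g).injective he
      rwa [this] at hy'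
    refine ⟨⟨g, hgN⟩, ?_⟩
    ext ⟨y, hy⟩
    obtain ⟨k, rfl⟩ := Subgroup.mem_zpowers_iff.1 hy
    have e1 : (⟨z ^ k, hy⟩ : Z) = (⟨z, hzZ⟩ : Z) ^ k := rfl
    rw [e1, map_zpow, map_zpow]
    congr 2
    apply Subtype.ext
    show g * z * g⁻¹ = _
    exact hg
  have h2 := Subgroup.card_dvd_of_surjective f hsurj
  have h3 : Nat.card (MulAut Z) = r - 1 := by
    rw [IsCyclic.card_mulAut, Nat.card_zpowers, hz, Nat.totient_prime hr]
  rw [h3] at h2
  exact h2.trans (Subgroup.card_subgroup_dvd_card _)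

end Cfsg.Agent.H224.OZ
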