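import Cfsg.Agent.H158.OZ.Crit
import Cfsg.Agent.H292.OZ.Gl

/-!
# S4842, `PΩ⁺_8(q)`: the elements `Dat` are elliptic (helper224)

`z ∈ E (Q8 F)`, `π : E (Q8 F) →* S` surjective with kernel scalars.

* `ell_four` : `Dat 4 s z f f'` gives `Ell` for `J = {0,1,2}`; `hz_four`, `hc_four`, `hirr_four`
* `ell_three` : `Dat 3 s z f f'`, `s 3 = 1`, gives `Ell` for `J = {0,1}`
* `ell_two` : `Dat 2 s z f f'`, `s 2 = 1`, `s 3 ≠ 1`, gives `Ell` for `J = {0}`
-/

set_option autoImplicit false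
set_option linter.unusedSectionVars false
set_option linter.unusedSimpArgs false

open Cfsg

namespace Cfsg.Agent.H224.OZ.EllDat

open CoxeterSystem Cfsg.Agent.Tits.Roots Cfsg.Agent.H158.OZ Cfsg.Agent.Nodes
open Cfsg.Agent.Nodes.TypeC (ng)
open Cfsg.Agent.Nodes.TypeD (isCartan)
open Cfsg.Agent.LieClassical.OrthCore Cfsg.Agent.LieClassical.OrthTrans Cfsg.Agent.LieClassical.OrthForms
open QuadraticMap Polynomial
open Cfsg.Agent.H985.VZ (Ell)
open Cfsg.Agent.H292.OZ (Dat)

theorem aeval_eig {F V : Type*} [Field F] [AddCommGroup V] [Module F V] {Z : Module.End F V} {v : V} {a : F}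
    (h : Z v = a • v) (q : F[X]) : aeval Z q v = q.eval a • v := by
  induction q using Polynomial.induction_on' with
  | add p q hp hq => rw [map_add, LinearMap.add_apply, hp, hq, eval_add, add_smul]
  | monomial n b =>
    have hp : (Z ^ n) v = a ^ n • v := by
      induction n with
      | zero => rw [pow_zero, pow_zero, one_smul]; rfl
      | succ n ih => rw [pow_succ', Module.End.mul_apply, ih, map_smul, h, smul_smul, pow_succ]
    rw [aeval_monomial, Module.End.mul_apply, Module.algebraMap_end_apply, hp, smul_smul, eval_monomial]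

theorem coprime_lin {F : Type*} [Field F] {f : F[X]} {a : F} (h : f.eval a ≠ 0) : IsCoprime f (X - C a) := by
  refine IsCoprime.symm (((irreducible_X_sub_C a).coprime_iff_not_dvd).2 fun h' => h ?_)
  exact dvd_iff_isRoot.1 h'

section dat

variable {F : Type*} [Field F]

theorem SZ_mono {Z Z' : Set (Fin 4 × Bool)} (h : Z ⊆ Z') : (SZ Z : Submodule F (V8 F)) ≤ SZ Z' :=
  fun _ hv x hx => hv x fun h' => hx (h h')

/-- the eigenvalues -/
def evx (s : Fin 4 → F) (x : Fin 4 × Bool) : F := cond x.2 (s x.1) (s x.1)⁻¹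

/-- the blocks -/
def PP (k : ℕ) (b : Bool) : Set (Fin 4 × Bool) := {x | x.2 = b ∧ (x.1 : ℕ) < k}

variable {k : ℕ} {s : Fin 4 → F} {z : V8 F ≃ₗ[F] V8 F} {f f' : F[X]} (D : Dat k s z f f')

include D

theorem z_bb {x : Fin 4 × Bool} (hx : k ≤ (x.1 : ℕ)) : z (bb x) = evx s x • bb x := by
  obtain ⟨i, b⟩ := x
  rw [bb_eq]
  cases b
  · exact D.sr i hx
  · exact D.sl i hx

theorem z_P {v : V8 F} (hv : v ∈ SZ (PP k true)) : z v ∈ SZ (PP k true) := by
  obtain ⟨h1, h2⟩ := D.pl v (fun i => hv (i, false) fun h => Bool.false_ne_true h.1)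
    (fun i hi => hv (i, true) fun h => absurd h.2 (not_lt.2 hi))
  rintro ⟨i, b⟩ hx
  cases b
  · exact h1 i
  · exact h2 i (not_lt.1 fun h => hx ⟨rfl, h⟩)

theorem kf_bb {x : Fin 4 × Bool} (hx : x ∈ PP k true) : aeval (z : Module.End F (V8 F)) f (bb x) = 0 := by
  obtain ⟨i, b⟩ := x
  obtain ⟨h1, h2⟩ := hx
  change b = true at h1
  subst h1
  rw [bb_eq]
  exact D.kf i h2

theorem kf'_bb {x : Fin 4 × Bool} (hx : x ∈ PP k false) : aeval (z : Module.End F (V8 F)) f' (bb x) = 0 := by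
  obtain ⟨i, b⟩ := x
  obtain ⟨h1, h2⟩ := hx
  change b = false at h1
  subst h1
  rw [bb_eq]
  exact D.kf' i h2

/-- the kernel of `f'(z)` -/
theorem ker_f' {v : V8 F} (hv : aeval (z : Module.End F (V8 F)) f' v = 0) : v ∈ SZ (PP k false) := by
  classical
  have hP : ∀ x ∈ PP k true, aeval (z : Module.End F (V8 F)) f' (bb x) ∈ SZ (PP k true) := fun x hx =>
    Cfsg.Agent.H158.OZ.aeval_mem (fun w hw => z_P D hw) f' (bb_mem_SZ hx)
  -- the eigenvector coordinates vanish
  have h1 : ∀ y : Fin 4 × Bool, k ≤ (y.1 : ℕ) → co y v = 0 := by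
    intro y hy
    have h2 := congrArg (co y) hv
    rw [apply_eq_sum (aeval (z : Module.End F (V8 F)) f') v, map_sum, map_zero, Finset.sum_eq_single y] at h2
    · rw [aeval_eig (z_bb D hy), map_smul, map_smul, co_bb, if_pos rfl, smul_eq_mul, smul_eq_mul, mul_one] at h2
      exact (mul_eq_zero.1 h2).resolve_right (D.ev' _)
    · intro x _ hxy
      rw [map_smul, smul_eq_mul]
      refine mul_eq_zero_of_right _ ?_
      by_cases hx : k ≤ (x.1 : ℕ)
      · rw [aeval_eig (z_bb D hx), map_smul, co_bb, if_neg (Ne.symm hxy), smul_zero]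
      · rcases hb : x.2 with _ | _
        · rw [kf'_bb D ⟨hb, not_le.1 hx⟩, map_zero]
        · exact hP x ⟨hb, not_le.1 hx⟩ y fun h => absurd h.2 (not_lt.2 hy)
    · intro h
      exact absurd (Finset.mem_univ y) h
  have h2 : v - pr (PP k true) v ∈ SZ (PP k false) := by
    intro x hx
    rw [map_sub, co_pr]
    by_cases hx1 : x ∈ PP k true
    · rw [if_pos hx1, sub_self]
    · rw [if_neg hx1, sub_zero]
      apply h1
      by_contra h3
      rcases hb : x.2 with _ | _
      · exact hx ⟨hb, not_le.1 h3⟩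
      · exact hx1 ⟨hb, not_le.1 h3⟩
  have h3 : aeval (z : Module.End F (V8 F)) f' (v - pr (PP k true) v) ∈ (⊥ : Submodule F (V8 F)) :=
    map_SZ (fun x hx => by rw [Submodule.mem_bot, kf'_bb D hx]) h2
  rw [Submodule.mem_bot, map_sub, hv, zero_sub, neg_eq_zero] at h3
  have h4 : aeval (z : Module.End F (V8 F)) f (pr (PP k true) v) ∈ (⊥ : Submodule F (V8 F)) :=
    map_SZ (fun x hx => by rw [Submodule.mem_bot, kf_bb D hx]) (pr_mem _ v)
  rw [Submodule.mem_bot] at h4
  have h5 := coprime_zero D.cop h4 h3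
  rwa [h5, sub_zero] at h2

theorem z_P' {x : Fin 4 × Bool} (hx : x ∈ PP k false) : z (bb x) ∈ SZ (PP k false) := by
  apply ker_f' D
  have h1 : Commute (z : Module.End F (V8 F)) (z : Module.End F (V8 F)) := Commute.refl _
  have h2 := congrArg (fun g : Module.End F (V8 F) => g (bb x)) (commute_aeval h1 f').eq
  have h3 : aeval (z : Module.End F (V8 F)) f' (z (bb x)) = z (aeval (z : Module.End F (V8 F)) f' (bb x)) := h2.symm
  rw [h3, kf'_bb D hx, map_zero]

/-- **the blocks** -/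
theorem hz_of {β : Fin 4 × Bool → ℕ} (h1 : ∀ b : Bool, ∀ x ∈ PP k b, ∀ y ∈ PP k b, β y = β x) (x : Fin 4 × Bool) :
    z (bb x) ∈ SZ {y | β y = β x} := by
  by_cases hx : k ≤ (x.1 : ℕ)
  · rw [z_bb D hx]
    exact Submodule.smul_mem _ _ (bb_mem_SZ (show β x = β x from rfl))
  · rcases hb : x.2 with _ | _
    · have hx' : x ∈ PP k false := ⟨hb, not_le.1 hx⟩
      exact SZ_mono (h1 false x hx') (z_P' D hx')
    · have hx' : x ∈ PP k true := ⟨hb, not_le.1 hx⟩
      exact SZ_mono (h1 true x hx') (z_P D (bb_mem_SZ hx'))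

/-- **irreducibility** -/
theorem hirr_of {ZJ : Set (Fin 4 × Bool)} (h : ∀ x, x ∈ ZJ ↔ x ∈ PP k true) (D' : Submodule F (V8 F)) (h1 : D' ≤ SZ ZJ)
    (h2 : ∀ v ∈ D', z v ∈ D') : D' = ⊥ ∨ D' = SZ ZJ := by
  by_cases h3 : D' = ⊥
  · exact Or.inl h3
  refine Or.inr (le_antisymm h1 fun v hv => ?_)
  have h4 := D.irr D' (fun v hv => ⟨fun i => h1 hv (i, false) fun h' => Bool.false_ne_true ((h _).1 h').1,
    fun i hi => h1 hv (i, true) fun h' => absurd ((h _).1 h').2 (not_lt.2 hi)⟩) h2 h3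
  refine map_SZ (g := LinearMap.id) (fun x hx => ?_) hv
  obtain ⟨i, b⟩ := x
  obtain ⟨h5, h6⟩ := (h _).1 hx
  change b = true at h5
  subst h5
  rw [LinearMap.id_apply, bb_eq]
  exact h4 i h6

end dat

section comm

variable {F : Type*} [Field F] {s : Fin 4 → F} {z u : V8 F ≃ₗ[F] V8 F} {f f' : F[X]}

theorem hz_four (D : Dat 4 s z f f') (x : Fin 4 × Bool) : z (bb x) ∈ SZ {y | r1 y = r1 x} := by
  refine hz_of D ?_ x
  rintro b x ⟨hx, -⟩ y ⟨hy, -⟩
  unfold r1
  rw [hx, hy]

theorem hc_four (D : Dat 4 s z f f') (hu : u ∈ UF r1) (hzu : z * u = u * z) : u = 1 := by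
  refine eq_one_of_blocks (β := r1) (fun _ _ h => h) hu fun x => block_of_comm hzu (hz_four D)
    (g := fun n => if n = 0 then f else f') (fun x => ?_) (fun x y h => ?_) x
  · rcases hb : x.2 with _ | _
    · rw [if_neg (by unfold r1; rw [hb]; decide)]
      exact kf'_bb D ⟨hb, x.1.2⟩
    · rw [if_pos (by unfold r1; rw [hb]; decide)]
      exact kf_bb D ⟨hb, x.1.2⟩
  · by_cases h1 : r1 x = 0
    · rw [if_pos h1, if_neg fun h2 => h (h1.trans h2.symm)]
      exact D.cop
    · rw [if_neg h1]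
      have h2 : r1 y = 0 := by
        by_contra h2
        apply h
        revert h1 h2
        unfold r1
        split_ifs <;> simp
      rw [if_pos h2]
      exact D.cop.symm

theorem hirr_four (D : Dat 4 s z f f') (D' : Submodule F (V8 F)) (h1 : D' ≤ SZ (DI 3)) (h2 : ∀ v ∈ D', z v ∈ D') :
    D' = ⊥ ∨ D' = SZ (DI 3) :=
  hirr_of D (fun x => ⟨fun h => ⟨h, x.1.2⟩, fun h => h.1⟩) D' h1 h2

theorem hz_three (D : Dat 3 s z f f') (x : Fin 4 × Bool) : z (bb x) ∈ SZ {y | b3 y = b3 x} := by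
  refine hz_of D ?_ x
  have key : ∀ (b : Bool) (x y : Fin 4 × Bool), (x.2 = b ∧ (x.1 : ℕ) < 3) → (y.2 = b ∧ (y.1 : ℕ) < 3) → b3 y = b3 x := by
    decide
  exact fun b x hx y hy => key b x y hx hy

theorem hc_three (D : Dat 3 s z f f') (h3 : s 3 = 1) (hu : u ∈ UF r3) (hzu : z * u = u * z) : u = 1 := by
  refine eq_one_of_blocks (β := r3) (fun _ _ h => h) hu fun x => block_of_comm hzu (fun x => ?_)
    (g := fun n => if n = 0 then f else if n = 1 then X - C 1 else f') (fun x => ?_) (fun x y h => ?_) x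
  · refine SZ_mono ?_ (hz_three D x)
    have key : ∀ x y : Fin 4 × Bool, b3 y = b3 x → r3 y = r3 x := by decide
    exact fun y hy => key x y hy
  · have key : ∀ x : Fin 4 × Bool, (r3 x = 0 ∧ (x.2 = true ∧ (x.1 : ℕ) < 3)) ∨ (r3 x = 1 ∧ x.1 = 3) ∨
        (r3 x = 2 ∧ (x.2 = false ∧ (x.1 : ℕ) < 3)) := by decide
    rcases key x with ⟨h1, h2⟩ | ⟨h1, h2⟩ | ⟨h1, h2⟩
    · rw [h1, if_pos rfl]
      exact kf_bb D h2
    · rw [h1, if_neg one_ne_zero, if_pos rfl, aeval_eig (z_bb D (show 3 ≤ (x.1 : ℕ) by rw [h2]; exact le_rfl))]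
      have h4 : evx s x = 1 := by
        unfold evx
        rw [h2, h3]
        cases x.2
        · exact inv_one
        · rfl
      rw [h4, eval_sub, eval_X, eval_C, sub_self, zero_smul]
    · rw [h1, if_neg two_ne_zero, if_neg (by decide)]
      exact kf'_bb D h2
  · have key : ∀ x : Fin 4 × Bool, r3 x = 0 ∨ r3 x = 1 ∨ r3 x = 2 := by decide
    rcases key x with h1 | h1 | h1 <;> rcases key y with h2 | h2 | h2 <;> rw [h1, h2] at h ⊢ <;>
      first | exact absurd rfl h | skip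
    · exact coprime_lin (D.ev 1)
    · exact D.cop
    · exact (coprime_lin (D.ev 1)).symm
    · exact (coprime_lin (D.ev' 1)).symm
    · exact D.cop.symm
    · exact coprime_lin (D.ev' 1)

theorem hz_two (D : Dat 2 s z f f') (x : Fin 4 × Bool) : z (bb x) ∈ SZ {y | b4 y = b4 x} := by
  refine hz_of D ?_ x
  have key : ∀ (b : Bool) (x y : Fin 4 × Bool), (x.2 = b ∧ (x.1 : ℕ) < 2) → (y.2 = b ∧ (y.1 : ℕ) < 2) → b4 y = b4 x := by
    decide
  exact fun b x hx y hy => key b x y hx hy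

/-- the coarse blocks for `{0}` -/
def c4 (x : Fin 4 × Bool) : ℕ := if x.1 = 3 then 2 else if x.1 = 2 then 1 else if x.2 then 0 else 3

theorem hc_two (D : Dat 2 s z f f') (h2 : s 2 = 1) (h3 : s 3 ≠ 1) (huO : u ∈ O (Q8 F)) (hu : u ∈ UF r4)
    (hzu : z * u = u * z) : u = 1 := by
  have hs3' : (s 3)⁻¹ ≠ 1 := fun h => h3 (inv_eq_one.1 h)
  have hcb : ∀ x, u (bb x) ∈ SZ {y | c4 y = c4 x} := by
    refine block_of_comm hzu (fun x => ?_)
      (g := fun n => if n = 0 then f else if n = 1 then X - C 1 else if n = 2 then (X - C (s 3)) * (X - C (s 3)⁻¹)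
        else f') (fun x => ?_) (fun x y h => ?_)
    · refine SZ_mono ?_ (hz_two D x)
      have key : ∀ x y : Fin 4 × Bool, b4 y = b4 x → c4 y = c4 x := by decide
      exact fun y hy => key x y hy
    · have key : ∀ x : Fin 4 × Bool, (c4 x = 0 ∧ (x.2 = true ∧ (x.1 : ℕ) < 2)) ∨ (c4 x = 1 ∧ x.1 = 2) ∨
        (c4 x = 2 ∧ x.1 = 3) ∨ (c4 x = 3 ∧ (x.2 = false ∧ (x.1 : ℕ) < 2)) := by decide
      rcases key x with ⟨h1, h4⟩ | ⟨h1, h4⟩ | ⟨h1, h4⟩ | ⟨h1, h4⟩
      · rw [h1, if_pos rfl]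
        exact kf_bb D h4
      · rw [h1, if_neg one_ne_zero, if_pos rfl, aeval_eig (z_bb D (show 2 ≤ (x.1 : ℕ) by rw [h4]; exact le_rfl))]
        have h5 : evx s x = 1 := by
          unfold evx
          rw [h4, h2]
          cases x.2
          · exact inv_one
          · rfl
        rw [h5, eval_sub, eval_X, eval_C, sub_self, zero_smul]
      · rw [h1, if_neg two_ne_zero, if_neg (by decide), if_pos rfl,
          aeval_eig (z_bb D (show 2 ≤ (x.1 : ℕ) by rw [h4]; decide))]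
        have h5 : evx s x = s 3 ∨ evx s x = (s 3)⁻¹ := by
          unfold evx
          rw [h4]
          cases x.2
          · exact Or.inr rfl
          · exact Or.inl rfl
        rw [eval_mul, eval_sub, eval_sub, eval_X, eval_C, eval_C]
        rcases h5 with h5 | h5
        · rw [h5, sub_self, zero_mul, zero_smul]
        · rw [h5, sub_self, mul_zero, zero_smul]
      · rw [h1, if_neg three_ne_zero, if_neg (by decide), if_neg (by decide)]
        exact kf'_bb D h4
    · have e1 : IsCoprime (X - C 1 : F[X]) ((X - C (s 3)) * (X - C (s 3)⁻¹)) := by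
        refine IsCoprime.mul_right (coprime_lin ?_) (coprime_lin ?_)
        · rw [eval_sub, eval_X, eval_C]
          exact sub_ne_zero.2 h3
        · rw [eval_sub, eval_X, eval_C]
          exact sub_ne_zero.2 hs3'
      have e2 : IsCoprime f ((X - C (s 3)) * (X - C (s 3)⁻¹)) :=
        IsCoprime.mul_right (coprime_lin (D.ev _)) (coprime_lin (D.ev _))
      have e3 : IsCoprime f' ((X - C (s 3)) * (X - C (s 3)⁻¹)) :=
        IsCoprime.mul_right (coprime_lin (D.ev' _)) (coprime_lin (D.ev' _))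
      have key : ∀ x : Fin 4 × Bool, c4 x = 0 ∨ c4 x = 1 ∨ c4 x = 2 ∨ c4 x = 3 := by decide
      rcases key x with h1 | h1 | h1 | h1 <;> rcases key y with h4 | h4 | h4 | h4 <;> rw [h1, h4] at h ⊢ <;>
        first | exact absurd rfl h | skip
      · exact coprime_lin (D.ev 1)
      · exact e2
      · exact D.cop
      · exact (coprime_lin (D.ev 1)).symm
      · exact e1
      · exact (coprime_lin (D.ev' 1)).symm
      · exact e2.symm
      · exact e1.symm
      · exact e3.symm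
      · exact D.cop.symm
      · exact coprime_lin (D.ev' 1)
      · exact e3
  -- outside `f2` the element is trivial
  have h1 : ∀ x : Fin 4 × Bool, x ≠ (2, false) → u (bb x) = bb x := by
    intro x hx
    rw [← sub_eq_zero]
    apply co_ext
    intro y
    rw [map_zero]
    have key : ∀ x y : Fin 4 × Bool, x ≠ (2, false) → c4 y = c4 x → ¬ r4 y < r4 x := by decide
    by_cases hy : c4 y = c4 x
    · exact UF_bb hu x y (key x y hx hy)
    · have h4 : u (bb x) - bb x ∈ SZ {y | c4 y = c4 x} :=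
        Submodule.sub_mem _ (hcb x) (bb_mem_SZ (show c4 x = c4 x from rfl))
      exact h4 y hy
  have h4 : u (bb (2, false)) = bb (2, false) + co (2, true) (u (bb (2, false))) • bb (2, true) := by
    rw [← sub_eq_iff_eq_add']
    apply co_ext
    intro y
    rw [map_smul, co_bb]
    by_cases hy1 : y = (2, true)
    · subst hy1
      rw [if_pos rfl, map_sub, co_bb, if_neg (by decide), sub_zero, smul_eq_mul, mul_one]
    · rw [if_neg hy1, smul_zero]
      have key : ∀ y : Fin 4 × Bool, y ≠ (2, true) → c4 y = c4 (2, false) → ¬ r4 y < r4 (2, false) := by decide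
      by_cases hy : c4 y = c4 (2, false)
      · exact UF_bb hu (2, false) y (key y hy1 hy)
      · have h4 : u (bb (2, false)) - bb (2, false) ∈ SZ {y | c4 y = c4 (2, false)} :=
          Submodule.sub_mem _ (hcb _) (bb_mem_SZ (show c4 (2, false) = c4 (2, false) from rfl))
        exact h4 y hy
  have h5 : co (2, true) (u (bb (2, false))) = 0 := by
    have h6 := huO (bb (2, false))
    rw [h4, Q8_apply, Q8_apply, Fin.sum_univ_four, Fin.sum_univ_four] at h6
    simp only [map_add, map_smul, co_bb, smul_eq_mul, Prod.mk.injEq] at h6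
    simpa using h6
  rw [h5, zero_smul, add_zero] at h4
  apply ext_bb
  intro x
  by_cases hx : x = (2, false)
  · subst hx; exact h4
  · exact h1 x hx

end comm

section ell

variable {F : Type*} [Field F] [Finite F] {S : Type*} [Group S] {π : E (Q8 F) →* S}
  {W : Type*} [Group W] {cs : CoxeterSystem (TypeD.M 2) W}
  (hk : ∀ z : E (Q8 F), z ∈ π.ker → ∃ a : F, ∀ v, (z : V8 F ≃ₗ[F] V8 F) v = a • v)
  (hπ : Function.Surjective π) {p : ℕ} [Fact p.Prime] [CharP F p] {z : E (Q8 F)} {s : Fin 4 → F} {f f' : F[X]}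

include hk hπ p

/-- **`{0, 1, 2}`** -/
theorem ell_four (D : Dat 4 s (z : V8 F ≃ₗ[F] V8 F) f f') : Ell cs (isCartan 2) (TSS π) (XS π) {0, 1, 2} (π z) := by
  refine ell_of (p := p) dt1 hk hπ (hz_four D) ?_ ⟨(0, true), rfl⟩ (fun u hu hzu => hc_four D hu hzu) (ZJ := DI 3) ?_ ?_
    (fun D' h1 h2 => hirr_four D D' h1 h2)
  · intro i hi x hx y hy
    have key : ∀ x y : Fin 4 × Bool, DB 3 x = true → r1 y = r1 x → DB 3 y = true := by decide
    have h3 : i = 3 := by
      revert hi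
      fin_cases i <;> simp
    subst h3
    exact key x y hx hy
  · intro x
    refine ⟨fun h j hj => ?_, fun h => h 3 (by simp)⟩
    have h3 : j = 3 := by
      revert hj
      fin_cases j <;> simp
    subst h3
    exact h
  · intro i hi
    have key : ∀ i : Fin 4, i ≠ 3 → (∃ x, DB 3 x = true ∧ DB i x = true) ∧ ∃ y, DB 3 y = true ∧ ¬ DB i y = true := by
      decide
    exact key i (by rintro rfl; simp at hi)

/-- **`{0, 1}`** -/
theorem ell_three (D : Dat 3 s (z : V8 F ≃ₗ[F] V8 F) f f') (h3 : s 3 = 1) :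
    Ell cs (isCartan 2) (TSS π) (XS π) {0, 1} (π z) := by
  have key1 : ∀ i : Fin 4, i ∉ ({0, 1} : Set (Fin 4)) → i = 2 ∨ i = 3 := by
    intro i
    fin_cases i <;> simp
  refine ell_of (p := p) dt3 hk hπ (hz_three D) ?_ ⟨(0, true), rfl⟩ (fun u hu hzu => hc_three D h3 hu hzu)
    (ZJ := PP 3 true) ?_ ?_ (fun D' h1 h2 => hirr_of D (fun _ => Iff.rfl) D' h1 h2)
  · intro i hi x hx y hy
    have key : ∀ (i : Fin 4) (x y : Fin 4 × Bool), (i = 2 ∨ i = 3) → DB i x = true → b3 y = b3 x → DB i y = true := by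
      decide
    exact key i x y (key1 i hi) hx hy
  · intro x
    have key : ∀ x : Fin 4 × Bool, (x.2 = true ∧ (x.1 : ℕ) < 3) ↔ (DB 2 x = true ∧ DB 3 x = true) := by decide
    constructor
    · intro h j hj
      have h4 := (key x).1 h
      rcases key1 j hj with rfl | rfl
      · exact h4.1
      · exact h4.2
    · intro h
      exact (key x).2 ⟨h 2 (by simp), h 3 (by simp)⟩
  · intro i hi
    have key : ∀ i : Fin 4, i = 0 ∨ i = 1 → (∃ x : Fin 4 × Bool, (x.2 = true ∧ (x.1 : ℕ) < 3) ∧ DB i x = true) ∧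
        ∃ y : Fin 4 × Bool, (y.2 = true ∧ (y.1 : ℕ) < 3) ∧ ¬ DB i y = true := by
      decide
    exact key i hi

/-- **`{0}`** -/
theorem ell_two (D : Dat 2 s (z : V8 F ≃ₗ[F] V8 F) f f') (h2 : s 2 = 1) (h3 : s 3 ≠ 1) :
    Ell cs (isCartan 2) (TSS π) (XS π) {0} (π z) := by
  have key1 : ∀ i : Fin 4, i ∉ ({0} : Set (Fin 4)) → i = 1 ∨ i = 2 ∨ i = 3 := by
    intro i
    fin_cases i <;> simp
  refine ell_of (p := p) dt4 hk hπ (hz_two D) ?_ ⟨(0, true), rfl⟩
    (fun u hu hzu => hc_two D h2 h3 (E_le_O u.2) hu hzu)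
    (ZJ := PP 2 true) ?_ ?_ (fun D' h1 h2 => hirr_of D (fun _ => Iff.rfl) D' h1 h2)
  · intro i hi x hx y hy
    have key : ∀ (i : Fin 4) (x y : Fin 4 × Bool), (i = 1 ∨ i = 2 ∨ i = 3) → DB i x = true → b4 y = b4 x →
        DB i y = true := by
      decide
    exact key i x y (key1 i hi) hx hy
  · intro x
    have key : ∀ x : Fin 4 × Bool, (x.2 = true ∧ (x.1 : ℕ) < 2) ↔ (DB 1 x = true ∧ DB 2 x = true ∧ DB 3 x = true) := by
      decide
    constructor
    · intro h j hj
      have h4 := (key x).1 h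
      rcases key1 j hj with rfl | rfl | rfl
      · exact h4.1
      · exact h4.2.1
      · exact h4.2.2
    · intro h
      exact (key x).2 ⟨h 1 (by simp), h 2 (by simp), h 3 (by simp)⟩
  · intro i hi
    have key : (∃ x : Fin 4 × Bool, (x.2 = true ∧ (x.1 : ℕ) < 2) ∧ DB 0 x = true) ∧
        ∃ y : Fin 4 × Bool, (y.2 = true ∧ (y.1 : ℕ) < 2) ∧ ¬ DB 0 y = true := by
      decide
    have h4 : i = 0 := hi
    subst h4
    exact key

end ell

end Cfsg.Agent.H224.OZ.EllDat
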