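import Cfsg.Agent.H224.OZ.Q3a
import Cfsg.Agent.TitsThree.KSideO

/-!
# S4842, `PΩ⁺₈(3)`: the end of the proof (helper224)

`Q = plusForm 4 F`, `|F| = 3`, `φ = toPOmega hG : E Q →* PΩ`.

* `ZElt z` : `z` preserves the two totally singular subspaces `Wl`, `Wr`, `Wl` is irreducible under `z²`, coprime
  polynomials kill `z²` on `Wl` and `Wr`, `z²⁰ = -1`;    `cent_z` : `|C(φ z)| ≤ 40`;
* `SElt s` : `s` is `1` on `e₂, f₂`, `-1` on `e₃, f₃`, `s⁸ = 1`, `s⁴` not a scalar;    `cent_s` : `16 ≤ |C(φ s)|`;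
* `q3_end` : no irreducible character with `OneZero`, a zero at `φ s` and an even value at `φ z`.
-/

set_option autoImplicit false
set_option linter.unusedSectionVars false

namespace Cfsg.Agent.H224.OZ.Q3

open Cfsg QuadraticMap Polynomial
open Cfsg.Agent.LieClassical Cfsg.Agent.LieClassical.OrthCore Cfsg.Agent.LieClassical.OrthTrans
open Cfsg.Agent.LieClassical.OrthSimple Cfsg.Agent.LieClassical.OrthFinite Cfsg.Agent.LieClassical.OrthForms
open Cfsg.Agent.TitsThree.KSideO Cfsg.Agent.H604.OZ Cfsg.Agent.H730.OZ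

universe u

section defs

variable (F : Type) [Field F]

abbrev VV := Fin 4 ⊕ Fin 4 → F

def Wl : Submodule F (VV F) where
  carrier := {v | ∀ j, v (Sum.inr j) = 0}
  add_mem' := fun ha hb j => by rw [Pi.add_apply, ha j, hb j, add_zero]
  zero_mem' := fun _ => rfl
  smul_mem' := fun c v hv j => by rw [Pi.smul_apply, hv j, smul_zero]

def Wr : Submodule F (VV F) where
  carrier := {v | ∀ j, v (Sum.inl j) = 0}
  add_mem' := fun ha hb j => by rw [Pi.add_apply, ha j, hb j, add_zero]
  zero_mem' := fun _ => rfl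
  smul_mem' := fun c v hv j => by rw [Pi.smul_apply, hv j, smul_zero]

def ev (i : Fin 4) : VV F := Pi.single (Sum.inl i) 1

def fv (i : Fin 4) : VV F := Pi.single (Sum.inr i) 1

end defs

variable {F : Type} [Field F]

theorem ev_mem (i : Fin 4) : ev F i ∈ Wl F := fun j => by simp [ev]

theorem fv_mem (i : Fin 4) : fv F i ∈ Wr F := fun j => by simp [fv]

theorem ev_ne (i : Fin 4) : ev F i ≠ 0 := fun h => by
  have := congrFun h (Sum.inl i)
  simp [ev] at this

theorem exists_add (v : VV F) : ∃ a ∈ Wl F, ∃ b ∈ Wr F, v = a + b := by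
  refine ⟨Sum.elim (fun i => v (Sum.inl i)) 0, fun j => rfl, Sum.elim 0 (fun i => v (Sum.inr i)), fun j => rfl, ?_⟩
  funext j
  rcases j with j | j <;> simp

theorem ext_of {v : VV F} (hl : v ∈ Wl F) (hr : v ∈ Wr F) : v = 0 := by
  funext j
  rcases j with j | j
  · exact hr j
  · exact hl j

theorem polar_ev (v : VV F) (i : Fin 4) : polar (plusForm 4 F) v (ev F i) = v (Sum.inr i) := by
  rw [polar_plusForm]
  simp [ev, Pi.single_apply]

theorem polar_fv (v : VV F) (i : Fin 4) : polar (plusForm 4 F) v (fv F i) = v (Sum.inl i) := by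
  rw [polar_plusForm]
  simp [fv, Pi.single_apply]

/-- irreducible on `Wl`, coprime polynomials on `Wl`, `Wr` -/
structure Half (h : VV F ≃ₗ[F] VV F) : Prop where
  pol : ∃ f f' : F[X], IsCoprime f f' ∧ (∀ v ∈ Wl F, aeval (h : VV F →ₗ[F] VV F) f v = 0) ∧
    ∀ v ∈ Wr F, aeval (h : VV F →ₗ[F] VV F) f' v = 0
  irr : ∀ U : Submodule F (VV F), U ≤ Wl F → (∀ u ∈ U, h u ∈ U) → U = ⊥ ∨ U = Wl F

theorem aeval_comm {h y : VV F ≃ₗ[F] VV F} (hy : y * h = h * y) (f : F[X]) (v : VV F) :
    aeval (h : VV F →ₗ[F] VV F) f (y v) = y (aeval (h : VV F →ₗ[F] VV F) f v) := by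
  have h1 : Commute (y : VV F →ₗ[F] VV F) (h : VV F →ₗ[F] VV F) := by
    exact LinearMap.ext fun v => congrArg (fun g : VV F ≃ₗ[F] VV F => g v) hy
  have h2 : Commute (y : VV F →ₗ[F] VV F) (aeval (h : VV F →ₗ[F] VV F) f) := by
    induction f using Polynomial.induction_on' with
    | add p q hp hq => rw [map_add]; exact hp.add_right hq
    | monomial n a =>
      rw [aeval_monomial]
      exact (Algebra.commute_algebraMap_right a _).mul_right (h1.pow_right n)
  exact (LinearMap.congr_fun h2.eq v).symm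

theorem Half.wl {h y : VV F ≃ₗ[F] VV F} (H : Half h) (hy : y * h = h * y) {v : VV F} (hv : v ∈ Wl F) : y v ∈ Wl F := by
  obtain ⟨f, f', ⟨a, b, hab⟩, h1, h2⟩ := H.pol
  obtain ⟨p, hp, q, hq, e⟩ := exists_add (y v)
  have e1 := aeval_comm hy f v
  rw [h1 v hv, map_zero, e, map_add, h1 p hp, zero_add] at e1
  have e2 := h2 q hq
  have e3 : aeval (h : VV F →ₗ[F] VV F) (a * f + b * f') q = q := by rw [hab, map_one]; rfl
  rw [map_add, map_mul, map_mul, LinearMap.add_apply, Module.End.mul_apply, Module.End.mul_apply, e1, e2, map_zero,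
    map_zero, add_zero] at e3
  rw [e, ← e3, add_zero]
  exact hp

theorem Half.wr {h y : VV F ≃ₗ[F] VV F} (H : Half h) (hy : y * h = h * y) {v : VV F} (hv : v ∈ Wr F) : y v ∈ Wr F := by
  obtain ⟨f, f', ⟨a, b, hab⟩, h1, h2⟩ := H.pol
  obtain ⟨p, hp, q, hq, e⟩ := exists_add (y v)
  have e1 := aeval_comm hy f' v
  rw [h2 v hv, map_zero, e, map_add, h2 q hq, add_zero] at e1
  have e2 := h1 p hp
  have e3 : aeval (h : VV F →ₗ[F] VV F) (a * f + b * f') p = p := by rw [hab, map_one]; rfl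
  rw [map_add, map_mul, map_mul, LinearMap.add_apply, Module.End.mul_apply, Module.End.mul_apply, e1, e2, map_zero,
    map_zero, add_zero] at e3
  rw [e, ← e3, zero_add]
  exact hq

/-- an isometry commuting with `h` and fixing `e₀` is trivial -/
theorem Half.eq_one {h g : VV F ≃ₗ[F] VV F} (H : Half h) (hg : g * h = h * g) (hO : g ∈ O (plusForm 4 F))
    (h0 : g (ev F 0) = ev F 0) : g = 1 := by
  have h1 : ∀ v ∈ Wl F, g v = v := by
    let U : Submodule F (VV F) :=
      { carrier := {v | v ∈ Wl F ∧ g v = v}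
        add_mem' := fun ha hb => ⟨(Wl F).add_mem ha.1 hb.1, by rw [map_add, ha.2, hb.2]⟩
        zero_mem' := ⟨(Wl F).zero_mem, map_zero g⟩
        smul_mem' := fun c v hv => ⟨(Wl F).smul_mem c hv.1, by rw [map_smul, hv.2]⟩ }
    have hU : U ≤ Wl F := fun v hv => hv.1
    rcases H.irr U hU (fun v hv => ⟨H.wl rfl hv.1, by
      have := congrArg (fun k : VV F ≃ₗ[F] VV F => k v) hg
      change g (h v) = h (g v) at this
      rw [this, hv.2]⟩) with h2 | h2
    · exfalso
      have h3 : ev F 0 ∈ U := ⟨ev_mem 0, h0⟩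
      rw [h2] at h3
      exact ev_ne 0 ((Submodule.mem_bot F).1 h3)
    · intro v hv
      rw [← h2] at hv
      exact hv.2
  have h2 : ∀ v ∈ Wr F, g v = v := by
    intro v hv
    have h3 := H.wr hg hv
    rw [← sub_eq_zero]
    refine ext_of (fun i => ?_) ((Wr F).sub_mem h3 hv)
    have h4 : polar (plusForm 4 F) (g v) (ev F i) = polar (plusForm 4 F) v (ev F i) := by
      conv_lhs => rw [← h1 _ (ev_mem i)]
      exact polar_map hO _ _
    rw [← polar_ev (g v - v) i, polar_sub_left, h4, sub_self]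
  apply LinearEquiv.ext
  intro v
  obtain ⟨a, ha, b, hb, rfl⟩ := exists_add v
  rw [map_add, h1 a ha, h2 b hb]
  rfl

/-- the centralizer in the isometries -/
theorem Half.card_le [Finite F] {h : VV F ≃ₗ[F] VV F} (H : Half h) (C : Subgroup (VV F ≃ₗ[F] VV F))
    (hC : ∀ y ∈ C, y * h = h * y) (hO : C ≤ O (plusForm 4 F)) : Nat.card C ≤ Nat.card F ^ 4 - 1 := by
  classical
  have := Fintype.ofFinite F
  let Φ : C → {w : Fin 4 → F // w ≠ 0} := fun y => ⟨fun i => y.1 (ev F 0) (Sum.inl i), fun h0 => by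
    have h1 := H.wl (hC y.1 y.2) (ev_mem 0)
    have h2 : y.1 (ev F 0) = 0 := ext_of h1 fun i => congrFun h0 i
    exact ev_ne 0 ((LinearEquiv.map_eq_zero_iff y.1).1 h2)⟩
  have hΦ : Function.Injective Φ := by
    intro y y' hyy
    have h1 : ∀ i, y.1 (ev F 0) (Sum.inl i) = y'.1 (ev F 0) (Sum.inl i) := fun i =>
      congrFun (congrArg Subtype.val hyy) i
    have h2 : y.1 (ev F 0) = y'.1 (ev F 0) := by
      rw [← sub_eq_zero]
      exact ext_of ((Wl F).sub_mem (H.wl (hC _ y.2) (ev_mem 0)) (H.wl (hC _ y'.2) (ev_mem 0))) fun i => by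
        rw [Pi.sub_apply, h1, sub_self]
    have h3 : ((y'⁻¹ * y : C) : VV F ≃ₗ[F] VV F) = 1 := by
      refine H.eq_one (hC _ (y'⁻¹ * y).2) (hO (y'⁻¹ * y).2) ?_
      show y'.1.symm (y.1 (ev F 0)) = _
      rw [h2, LinearEquiv.symm_apply_apply]
    have h4 : y'⁻¹ * y = 1 := Subtype.ext h3
    rw [inv_mul_eq_one] at h4
    exact h4.symm
  refine (Nat.card_le_card_of_injective Φ hΦ).trans (le_of_eq ?_)
  rw [Nat.card_eq_fintype_card, Fintype.card_subtype_compl, Fintype.card_subtype_eq, Fintype.card_fun,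
    Fintype.card_fin, Nat.card_eq_fintype_card]

/-! ### the map to `PΩ` -/

section proj

variable (hG : Good (plusForm 4 F))

theorem sq_of_ker {g : E (plusForm 4 F)} (h : toPOmega hG g = 1) : g ^ 2 = 1 := by
  obtain ⟨c, hc⟩ := scalar_of_center hG (center_of_toPOmega hG h)
  have h1 := polar_map (g := g.1) (Q := plusForm 4 F) (E_le_O g.2) (ev F 0) (fv F 0)
  rw [hc, hc, polar_smul_left, polar_smul_right, polar_fv] at h1
  have h2 : c * c = 1 := by simpa [ev] using h1
  apply Subtype.ext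
  apply LinearEquiv.ext
  intro v
  show (g : VV F ≃ₗ[F] VV F) (g.1 v) = v
  rw [hc, hc, smul_smul, h2, one_smul]

theorem ker_of_center {g : E (plusForm 4 F)} (h : g ∈ Subgroup.center (E (plusForm 4 F))) : toPOmega hG g = 1 := by
  refine (QuotientGroup.eq_one_iff _).2 ?_
  rw [Subgroup.mem_center_iff]
  intro k
  obtain ⟨k, rfl⟩ := (toOmega hG).surjective k
  change toOmega hG k * toOmega hG g = toOmega hG g * toOmega hG k
  rw [← map_mul, ← map_mul, Subgroup.mem_center_iff.1 h k]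

/-! ### the element `z` -/

/-- the element of order `40` -/
structure ZElt (z : E (plusForm 4 F)) : Prop where
  half : Half (z.1 ^ 2)
  neg : ∀ v, (z.1 ^ 20) v = -v

theorem ZElt.neg_center {z : E (plusForm 4 F)} (hz : ZElt z) : z ^ 20 ∈ Subgroup.center (E (plusForm 4 F)) := by
  rw [Subgroup.mem_center_iff]
  intro k
  apply Subtype.ext
  apply LinearEquiv.ext
  intro v
  have h1 : ∀ v, ((z ^ 20 : E (plusForm 4 F)) : VV F ≃ₗ[F] VV F) v = -v := fun v => by
    rw [SubmonoidClass.coe_pow]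
    exact hz.neg v
  generalize z ^ 20 = m at h1 ⊢
  show k.1 (m.1 v) = m.1 (k.1 v)
  rw [h1, h1, map_neg]

theorem ZElt.cent_le {z : E (plusForm 4 F)} (hz : ZElt z) (hF : Nat.card F = 3) :
    cent (toPOmega hG z) ≤ 40 := by
  have hfF : Finite F := Nat.finite_of_card_ne_zero (by rw [hF]; norm_num)
  have hfV : Finite (VV F ≃ₗ[F] VV F) := Finite.of_injective (fun g : VV F ≃ₗ[F] VV F => (g : VV F → VV F))
    DFunLike.coe_injective
  have h2 : (2 : F) ≠ 0 := by
    intro h
    have := Fintype.ofFinite F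
    have h4 : ((Fintype.card F : ℕ) : F) = 0 := Nat.cast_card_eq_zero F
    rw [← Nat.card_eq_fintype_card, hF] at h4
    have h5 : (1 : F) = ((3 : ℕ) : F) - 2 := by push_cast; ring
    rw [h4, h] at h5
    simp at h5
  set C : Subgroup (E (plusForm 4 F)) := Subgroup.centralizer {z ^ 2} with hC
  have h1 : Subgroup.centralizer {toPOmega hG z} ≤ C.map (toPOmega hG) := by
    intro y' hy'
    obtain ⟨y, rfl⟩ := toPOmega_surjective hG y'
    refine ⟨y, ?_, rfl⟩
    rw [Subgroup.mem_centralizer_singleton_iff, ← map_mul, ← map_mul] at hy'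
    have e1 : toPOmega hG (y * z * (z * y)⁻¹) = 1 := by
      rw [map_mul, map_inv, hy', mul_inv_cancel]
    have e2 := sq_of_ker hG e1
    have e3 := center_of_toPOmega hG e1
    set c := y * z * (z * y)⁻¹ with hc
    have e4 : y * z = c * (z * y) := by rw [hc, inv_mul_cancel_right]
    have e5 := Subgroup.mem_center_iff.1 e3
    change y ∈ Subgroup.centralizer {z ^ 2}
    rw [Subgroup.mem_centralizer_singleton_iff]
    calc y * z ^ 2 = (c * (z * y)) * z := by rw [pow_two, ← mul_assoc, e4]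
      _ = c * z * (y * z) := by simp only [mul_assoc]
      _ = c * z * (c * (z * y)) := by rw [e4]
      _ = c * (z * c) * (z * y) := by simp only [mul_assoc]
      _ = c * (c * z) * (z * y) := by rw [e5 z]
      _ = c ^ 2 * (z ^ 2 * y) := by simp only [pow_two, mul_assoc]
      _ = z ^ 2 * y := by rw [e2, one_mul]
  have h3 : Nat.card C ≤ 80 := by
    have h4 := hz.half.card_le (C.map (E (plusForm 4 F)).subtype) (by
      rintro _ ⟨y, hy, rfl⟩
      have h5 : y * z ^ 2 = z ^ 2 * y := Subgroup.mem_centralizer_singleton_iff.1 hy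
      exact congrArg Subtype.val h5) (by
      rintro _ ⟨y, hy, rfl⟩
      exact E_le_O y.2)
    rw [Nat.card_congr (Subgroup.equivMapOfInjective C _ (E (plusForm 4 F)).subtype_injective).symm.toEquiv, hF] at h4
    exact h4
  have h4 : 2 * Nat.card (C.map (toPOmega hG)) ≤ Nat.card C := by
    set ψ : C →* _ := (toPOmega hG).comp C.subtype with hψ
    have e1 : C.map (toPOmega hG) = ψ.range := by
      rw [hψ, MonoidHom.range_comp, Subgroup.range_subtype]
    rw [e1, ← Subgroup.index_ker, ← Subgroup.card_mul_index ψ.ker]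
    apply Nat.mul_le_mul_right
    have e2 : ψ.ker ≠ ⊥ := by
      intro h
      have hm : z ^ 20 ∈ C := by
        change z ^ 20 ∈ Subgroup.centralizer {z ^ 2}
        rw [Subgroup.mem_centralizer_singleton_iff, ← pow_add, ← pow_add]
      have e3 : (⟨z ^ 20, hm⟩ : C) ∈ ψ.ker := ker_of_center hG hz.neg_center
      rw [h, Subgroup.mem_bot] at e3
      have e4 : z ^ 20 = 1 := congrArg Subtype.val e3
      have e5 := hz.neg (ev F 0)
      rw [show z.1 ^ 20 = 1 from congrArg Subtype.val e4] at e5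
      have e6 := congrFun e5 (Sum.inl 0)
      simp [ev] at e6
      apply h2
      linear_combination e6
    have := Subgroup.one_lt_card_iff_ne_bot ψ.ker |>.2 e2
    omega
  have h5 : cent (toPOmega hG z) ≤ Nat.card (C.map (toPOmega hG)) :=
    Nat.card_le_card_of_injective _ (Subgroup.inclusion_injective h1)
  omega

theorem ZElt.pow_ne {z : E (plusForm 4 F)} (hz : ZElt z) : toPOmega hG z ^ 8 ≠ 1 := by
  intro h
  rw [← map_pow] at h
  have h1 := sq_of_ker hG h
  rw [← pow_mul] at h1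
  have h2 : z.1 ^ 16 = 1 := congrArg Subtype.val h1
  have h3 : ∀ v, (z.1 ^ 2) ((z.1 ^ 2) v) = -v := by
    intro v
    have h4 := hz.neg v
    rw [show z.1 ^ 20 = z.1 ^ 16 * (z.1 ^ 2 * z.1 ^ 2) by group, h2, one_mul] at h4
    exact h4
  set g := z.1 ^ 2 with hg
  let U : Submodule F (VV F) := Submodule.span F {ev F 0, g (ev F 0)}
  have hgW : g (ev F 0) ∈ Wl F := hz.half.wl rfl (ev_mem 0)
  have hU : U ≤ Wl F := by
    rw [Submodule.span_le]
    rintro v (rfl | rfl)
    · exact ev_mem 0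
    · exact hgW
  have hst : ∀ u ∈ U, g u ∈ U := by
    intro u hu
    have h4 : U ≤ U.comap (g : VV F →ₗ[F] VV F) := by
      rw [Submodule.span_le]
      rintro v (rfl | rfl)
      · exact Submodule.subset_span (Or.inr rfl)
      · show g (g (ev F 0)) ∈ U
        rw [h3]
        exact U.neg_mem (Submodule.subset_span (Or.inl rfl))
    exact h4 hu
  rcases hz.half.irr U hU hst with h4 | h4
  · have h5 : ev F 0 ∈ U := Submodule.subset_span (Or.inl rfl)
    rw [h4] at h5
    exact ev_ne 0 ((Submodule.mem_bot F).1 h5)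
  · have h5 : Module.finrank F U ≤ 2 := by
      classical
      have h7 := finrank_span_finset_le_card (R := F) ({ev F 0, g (ev F 0)} : Finset (VV F))
      simp only [Finset.coe_insert, Finset.coe_singleton] at h7
      exact h7.trans Finset.card_le_two
    have h6 : 4 ≤ Module.finrank F (Wl F) := by
      have h7 : LinearIndependent F (fun i : Fin 4 => (⟨ev F i, ev_mem i⟩ : Wl F)) := by
        rw [linearIndependent_iff']
        intro s c hc i hi
        have h8 := congrFun (congrArg Subtype.val hc) (Sum.inl i)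
        simpa [ev, Finset.sum_apply, Pi.single_apply, hi] using h8
      have := h7.fintype_card_le_finrank
      rwa [Fintype.card_fin] at this
    rw [← h4] at h6
    omega

/-! ### the element `s` -/

/-- the element of order `8` -/
structure SElt (s : E (plusForm 4 F)) : Prop where
  e2 : s.1 (ev F 2) = ev F 2
  f2 : s.1 (fv F 2) = fv F 2
  e3 : s.1 (ev F 3) = -ev F 3
  f3 : s.1 (fv F 3) = -fv F 3
  pow : s ^ 8 = 1
  ne : s ^ 4 ≠ 1

theorem Q_ef (i : Fin 4) : plusForm 4 F (ev F i - fv F i) = -1 := by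
  rw [coe_plusForm, quadFormPlus]
  rw [Finset.sum_eq_single i]
  · simp [ev, fv]
  · intro j _ hj
    simp [ev, fv, hj]
  · simp

theorem Q_ef_ne (i : Fin 4) : plusForm 4 F (ev F i - fv F i) ≠ 0 := by
  rw [Q_ef]
  exact neg_ne_zero.2 one_ne_zero

/-- the element commuting with `s` -/
noncomputable def wEl : VV F ≃ₗ[F] VV F :=
  refl (plusForm 4 F) (ev F 2 - fv F 2) (Q_ef_ne 2) * refl (plusForm 4 F) (ev F 3 - fv F 3) (Q_ef_ne 3)

theorem wEl_mem (hG : Good (plusForm 4 F)) : (wEl : VV F ≃ₗ[F] VV F) ∈ E (plusForm 4 F) :=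
  hG.refl_mul_refl_mem _ _ (by rw [Q_ef, Q_ef])

theorem refl_comm {g : VV F ≃ₗ[F] VV F} (hO : g ∈ O (plusForm 4 F)) {v : VV F} (hv : plusForm 4 F v ≠ 0) {c : F}
    (hc : c * c = 1) (h : g v = c • v) : g * refl (plusForm 4 F) v hv = refl (plusForm 4 F) v hv * g := by
  apply LinearEquiv.ext
  intro x
  show g (refl (plusForm 4 F) v hv x) = refl (plusForm 4 F) v hv (g x)
  rw [refl_apply, refl_apply, map_sub, map_smul, h]
  have h1 : polar (plusForm 4 F) v (g x) = c * polar (plusForm 4 F) v x := by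
    have h2 := polar_map hO v x
    rw [h, polar_smul_left, smul_eq_mul] at h2
    rw [← h2, ← mul_assoc, hc, one_mul]
  rw [h1, smul_smul]
  congr 2
  ring

theorem SElt.comm {s : E (plusForm 4 F)} (hs : SElt s) : s.1 * wEl = wEl * s.1 := by
  have h2 := refl_comm (g := s.1) (E_le_O s.2) (Q_ef_ne 2) (c := 1) (one_mul 1) (by
    rw [map_sub, hs.e2, hs.f2, one_smul])
  have h3 := refl_comm (g := s.1) (E_le_O s.2) (Q_ef_ne 3) (c := -1) (by ring) (by
    rw [map_sub, hs.e3, hs.f3]; module)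
  rw [wEl, ← mul_assoc, h2, mul_assoc, h3, mul_assoc]

theorem wEl_ev : (wEl : VV F ≃ₗ[F] VV F) (ev F 2) = fv F 2 := by
  have h3 : polar (plusForm 4 F) (ev F 3 - fv F 3) (ev F 2) = 0 := by
    rw [polar_ev]
    simp [ev, fv]
  have h2 : polar (plusForm 4 F) (ev F 2 - fv F 2) (ev F 2) = -1 := by
    rw [polar_ev]
    simp [ev, fv]
  show refl (plusForm 4 F) (ev F 2 - fv F 2) (Q_ef_ne 2) (refl (plusForm 4 F) (ev F 3 - fv F 3) (Q_ef_ne 3) (ev F 2)) = _
  have h4 : refl (plusForm 4 F) (ev F 3 - fv F 3) (Q_ef_ne 3) (ev F 2) = ev F 2 := by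
    rw [refl_apply, h3, mul_zero, zero_smul, sub_zero]
  rw [h4, refl_apply, h2, Q_ef]
  simp

theorem SElt.le_cent [Finite F] {s : E (plusForm 4 F)} (hs : SElt s) : 16 ≤ cent (toPOmega hG s) := by
  have hfV : Finite (VV F ≃ₗ[F] VV F) := Finite.of_injective (fun g : VV F ≃ₗ[F] VV F => (g : VV F → VV F))
    DFunLike.coe_injective
  have hfY : Finite (Cfsg.POmega F ⇑(plusForm 4 F)) := Finite.of_surjective _ (toPOmega_surjective hG)
  have h8 : orderOf (toPOmega hG s) = 2 ^ (2 + 1) := by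
    refine orderOf_eq_prime_pow (fun h => ?_) (by
      show toPOmega hG s ^ 8 = 1
      rw [← map_pow, hs.pow, map_one])
    rw [← map_pow] at h
    obtain ⟨c, hc⟩ := scalar_of_center hG (center_of_toPOmega hG h)
    have h1 : (s.1 ^ 4) (ev F 2) = ev F 2 := by
      have : (s.1 ^ 4) (ev F 2) = s.1 (s.1 (s.1 (s.1 (ev F 2)))) := rfl
      rw [this, hs.e2, hs.e2, hs.e2, hs.e2]
    have h2 : (s.1 ^ 4) (ev F 2) = c • ev F 2 := hc _
    rw [h1] at h2
    have h3 := congrFun h2 (Sum.inl 2)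
    have h4 : c = 1 := by simpa [ev] using h3.symm
    apply hs.ne
    apply Subtype.ext
    apply LinearEquiv.ext
    intro v
    have h5 : (s.1 ^ 4) v = c • v := hc v
    rw [h4, one_smul] at h5
    exact h5
  set w : E (plusForm 4 F) := ⟨wEl, wEl_mem hG⟩ with hw
  have hwc : toPOmega hG w ∈ Subgroup.centralizer {toPOmega hG s} := by
    rw [Subgroup.mem_centralizer_singleton_iff, ← map_mul, ← map_mul]
    exact congrArg _ (Subtype.ext hs.comm.symm)
  have hwn : toPOmega hG w ∉ Subgroup.zpowers (toPOmega hG s) := by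
    intro h
    rw [← mem_powers_iff_mem_zpowers] at h
    obtain ⟨k, hk⟩ := h
    have h1 : toPOmega hG (w * (s ^ k)⁻¹) = 1 := by
      rw [map_mul, map_inv, map_pow, ← hk, mul_inv_cancel]
    obtain ⟨c, hc⟩ := scalar_of_center hG (center_of_toPOmega hG h1)
    have h2 : ∀ k : ℕ, (s.1 ^ k) (ev F 2) = ev F 2 := by
      intro k
      induction k with
      | zero => rfl
      | succ k ih =>
        rw [pow_succ]
        show (s.1 ^ k) (s.1 (ev F 2)) = _
        rw [hs.e2, ih]
    have h3 := hc (ev F 2)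
    have h4 : ((w * (s ^ k)⁻¹ : E (plusForm 4 F)) : VV F ≃ₗ[F] VV F) (ev F 2) = fv F 2 := by
      have h5 : (s.1 ^ k).symm (ev F 2) = ev F 2 := by
        rw [LinearEquiv.symm_apply_eq, h2]
      show wEl ((s.1 ^ k).symm (ev F 2)) = _
      rw [h5, wEl_ev]
    rw [h4] at h3
    have h5 := congrFun h3 (Sum.inr 2)
    simp [ev, fv] at h5
  have hle : Subgroup.zpowers (toPOmega hG s) ≤ Subgroup.centralizer {toPOmega hG s} := by
    rw [Subgroup.zpowers_le, Subgroup.mem_centralizer_singleton_iff]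
  have hz : Nat.card (Subgroup.zpowers (toPOmega hG s)) = 8 := by rw [Nat.card_zpowers, h8]; norm_num
  have hd : 8 ∣ cent (toPOmega hG s) := hz ▸ Subgroup.card_dvd_of_le hle
  have hne : cent (toPOmega hG s) ≠ 8 := by
    intro h
    have h1 := Subgroup.eq_of_le_of_card_ge hle (by rw [hz]; exact h.le)
    rw [← h1] at hwc
    exact hwn hwc
  have hpos : 0 < cent (toPOmega hG s) := Nat.card_pos
  obtain ⟨k, hk⟩ := hd
  rw [hk] at hne hpos ⊢
  omega

/-- **(Q3)**: the end of the row `PΩ⁺₈(3)` -/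
theorem q3_end (hF : Nat.card F = 3) {S : Type u} [Group S] [Finite S]
    (e : S ≃* Cfsg.POmega F ⇑(plusForm 4 F)) {χ : S → ℂ} (hχ : IsIrrCharacter S χ) (h1 : OneZero χ)
    {z s : E (plusForm 4 F)} (hz : ZElt z) (hs : SElt s) (hs0 : χ (e.symm (toPOmega hG s)) = 0)
    (hz2 : ∃ k : ℤ, χ (e.symm (toPOmega hG z)) = 2 * k) : False := by
  have hfF : Finite F := Nat.finite_of_card_ne_zero (by rw [hF]; norm_num)
  refine not_oneZero_of_cent e hχ (n := 2) hs0 (by exact_mod_cast hz2) ?_ ?_ h1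
  · intro h
    obtain ⟨c, hc⟩ := isConj_iff.1 h
    apply hz.pow_ne hG
    rw [← hc, conj_pow, ← map_pow, hs.pow, map_one, mul_one, mul_inv_cancel]
  · have h2 := hz.cent_le hG hF
    have h3 := hs.le_cent hG
    norm_num
    omega

end proj

end Cfsg.Agent.H224.OZ.Q3
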