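import Cfsg.Agent.H224.OZ.Q3
import Cfsg.Agent.H292.OZ.Gl

/-!
# S4842, `PΩ⁺₈(3)`: the elements `z`, `s` of `Q3` from the data `Dat` of helper292 (helper224)
-/

set_option autoImplicit false
set_option linter.unusedSectionVars false

namespace Cfsg.Agent.H224.OZ.Q3

open Cfsg QuadraticMap Polynomial
open Cfsg.Agent.LieClassical Cfsg.Agent.LieClassical.OrthCore Cfsg.Agent.LieClassical.OrthTrans
open Cfsg.Agent.LieClassical.OrthSimple Cfsg.Agent.LieClassical.OrthFinite Cfsg.Agent.LieClassical.OrthForms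
open Cfsg.Agent.TitsThree.KSideO Cfsg.Agent.H604.OZ Cfsg.Agent.H730.OZ Cfsg.Agent.H292.OZ

universe u

variable {F : Type} [Field F]

theorem wl_sum {v : VV F} (hv : v ∈ Wl F) : v = ∑ i : Fin 4, v (Sum.inl i) • ev F i := by
  funext j
  rcases j with j | j
  · simp [ev, Finset.sum_apply, Pi.single_apply]
  · rw [hv j]
    simp [ev, Finset.sum_apply]

theorem wr_sum {v : VV F} (hv : v ∈ Wr F) : v = ∑ i : Fin 4, v (Sum.inr i) • fv F i := by
  funext j
  rcases j with j | j
  · rw [hv j]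
    simp [fv, Finset.sum_apply]
  · simp [fv, Finset.sum_apply, Pi.single_apply]

theorem half_of_dat {s : Fin 4 → F} {z : VV F ≃ₗ[F] VV F} {f f' : F[X]} (h : Dat 4 s z f f') : Half z where
  pol := by
    refine ⟨f, f', h.cop, fun v hv => ?_, fun v hv => ?_⟩
    · rw [wl_sum hv, map_sum]
      exact Finset.sum_eq_zero fun i _ => by rw [map_smul, ev, h.kf i i.2, smul_zero]
    · rw [wr_sum hv, map_sum]
      exact Finset.sum_eq_zero fun i _ => by rw [map_smul, fv, h.kf' i i.2, smul_zero]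
  irr := by
    intro U hU hst
    by_cases h0 : U = ⊥
    · exact Or.inl h0
    · refine Or.inr (le_antisymm hU fun v hv => ?_)
      have h1 := h.irr U (fun v hv => ⟨hU hv, fun i hi => absurd i.2 (not_lt.2 hi)⟩) hst h0
      rw [wl_sum hv]
      exact U.sum_mem fun i _ => U.smul_mem _ (h1 i i.2)

theorem zelt_of_dat {s : Fin 4 → F} {z : E (plusForm 4 F)} {f f' : F[X]} (h : Dat 4 s (z.1 * z.1) f f')
    (hz : ∀ v, (z.1 ^ 20) v = -v) : ZElt z where
  half := by
    rw [pow_two]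
    exact half_of_dat h
  neg := hz

theorem selt_of_dat {s : Fin 4 → F} {z : E (plusForm 4 F)} {f f' : F[X]} (h : Dat 2 s z.1 f f') (h2 : s 2 = 1)
    (h3 : s 3 = -1) (h8 : z ^ 8 = 1) (h4 : z ^ 4 ≠ 1) : SElt z where
  e2 := by rw [ev, h.sl 2 (by decide), h2, one_smul]
  f2 := by rw [fv, h.sr 2 (by decide), h2, inv_one, one_smul]
  e3 := by rw [ev, h.sl 3 (by decide), h3, neg_one_smul]
  f3 := by rw [fv, h.sr 3 (by decide), h3, inv_neg, inv_one, neg_one_smul]
  pow := h8
  ne := h4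

end Cfsg.Agent.H224.OZ.Q3
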