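import Cfsg.Agent.H849.OZ.Bad

/-!
# S4842: the excess inequality for an element with an integral value (helper224)

`one_class_int` : `χ(t) = k ∈ ℤ`, `n ∣ k`, `t` not conjugate to the zero `x`: `|C(x)| (n² - 1) ≤ |C(t)|`
(no rationality of `t`).
-/

set_option autoImplicit false
set_option linter.unusedSectionVars false

open Cfsg Cfsg.Agent.Characters Cfsg.Agent.H686.CharKit Cfsg.Agent.H732.VZ Cfsg.Agent.H604.OZ Cfsg.Agent.H849.OZ
open Cfsg.Agent.H730.OZ

namespace Cfsg.Agent.H224.OZ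

universe u v

variable {G : Type u} [Group G] [Finite G] {χ : IrrCharacter G}

theorem value_pow {t : G} {k : ℤ} (hk : (χ : G → ℂ) t = k) {m : ℕ} (hm : m.Coprime (Nat.card G)) :
    (χ : G → ℂ) (t ^ m) = k := by
  obtain ⟨σ, hσ⟩ := GaloisBasic.exists_ringEquiv_of_coprime (G := G) hm
  rw [← hσ _ (Core.isIrr_isCharacter χ.2), hk, map_intCast]

theorem meanGE_int {t : G} {k : ℤ} (hk : (χ : G → ℂ) t = k) : MeanGE χ t ((k : ℝ) ^ 2) := by
  unfold MeanGE
  have : NeZero (Nat.card G) := ⟨Nat.card_pos.ne'⟩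
  have h1 : ∀ m : (ZMod (Nat.card G))ˣ, Complex.normSq ((χ : G → ℂ) (t ^ (m : ZMod (Nat.card G)).val)) = (k : ℝ) ^ 2 := by
    intro m
    rw [value_pow hk (ZMod.val_coe_unit_coprime m), Complex.normSq_intCast, pow_two]
  rw [Finset.sum_congr rfl fun m _ => h1 m, Finset.sum_const, nsmul_eq_mul, Finset.card_univ]

theorem one_class_int {x t : G} (h : One χ x) {k : ℤ} (hk : (χ : G → ℂ) t = k) (hx : ¬ IsConj x t) {n : ℕ}
    (hn : (n : ℤ) ∣ k) : cent x * (n ^ 2 - 1) ≤ cent t := by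
  classical
  have := Fintype.ofFinite G
  have hk0 : k ≠ 0 := by
    rintro rfl
    exact hx (h.uniq t (by rw [hk]; simp))
  set Y : Finset G := Finset.univ.filter fun g => ∃ m : ℕ, m.Coprime (Nat.card G) ∧ IsConj (t ^ m) g with hY
  have hmem : ∀ g, g ∈ Y ↔ ∃ m : ℕ, m.Coprime (Nat.card G) ∧ IsConj (t ^ m) g := fun g => by simp [hY]
  have hval : ∀ g ∈ Y, (χ : G → ℂ) g = k := by
    intro g hg
    obtain ⟨m, hm, h1⟩ := (hmem g).1 hg
    rw [← Core.classFunction_apply_eq (Core.isIrr_isClassFunction χ.2) h1, value_pow hk hm]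
  have h1 := excess_sets h {()} (fun _ => Y) (fun _ => (k : ℝ) ^ 2)
    (fun _ _ => by
      intro g hg j hj
      obtain ⟨m, hm, h1⟩ := (hmem g).1 hg
      exact (hmem _).2 ⟨m * j, hm.mul_left hj, by rw [pow_mul]; exact isConj_pow h1 j⟩)
    (fun i _ j _ hij => absurd rfl hij)
    (fun _ _ g hg h2 => by
      have h3 := hval g hg
      rw [← Core.classFunction_apply_eq (Core.isIrr_isClassFunction χ.2) h2, h.zero] at h3
      exact hk0 (by exact_mod_cast h3.symm))
    (fun _ _ g hg => meanGE_int (hval g hg))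
  rw [Finset.sum_singleton] at h1
  have hsub : (Finset.univ.filter fun g : G => IsConj t g) ⊆ Y := by
    intro g hg
    exact (hmem g).2 ⟨1, Nat.coprime_one_left _, by rw [pow_one]; exact (Finset.mem_filter.1 hg).2⟩
  have h2 : Nat.card G ≤ Y.card * cent t := by
    rw [← card_class t]
    exact Nat.mul_le_mul_right _ (Finset.card_le_card hsub)
  have hYpos : 0 < Y.card := Finset.card_pos.2 ⟨t, (hmem t).2 ⟨1, Nat.coprime_one_left _, by rw [pow_one]⟩⟩
  have h2' : (n : ℤ) ^ 2 ≤ k ^ 2 := by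
    have h3 : n ≤ k.natAbs := Nat.le_of_dvd (Int.natAbs_pos.2 hk0) (Int.natCast_dvd.1 hn)
    have h4 : (n : ℤ) ≤ |k| := by
      rw [Int.abs_eq_natAbs]
      exact_mod_cast h3
    rw [← sq_abs k]
    exact pow_le_pow_left₀ (by positivity) h4 2
  have h3 : ((n : ℝ)) ^ 2 ≤ (k : ℝ) ^ 2 := by exact_mod_cast h2'
  rcases Nat.eq_zero_or_pos n with h0 | h0
  · subst h0
    simp
  · have h4 : ((Y.card * (cent x * (n ^ 2 - 1)) : ℕ) : ℝ) ≤ (Y.card * cent t : ℕ) := by
      rw [Nat.cast_mul, Nat.cast_mul (cent x), Nat.cast_sub (Nat.one_le_pow _ _ h0), Nat.cast_pow, Nat.cast_one]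
      have h5 : (Nat.card G : ℝ) ≤ (Y.card * cent t : ℕ) := by exact_mod_cast h2
      have h6 : (Y.card : ℝ) * (cent x * ((n : ℝ) ^ 2 - 1)) ≤ cent x * (Y.card * ((k : ℝ) ^ 2 - 1)) := by
        have h7 : (0 : ℝ) ≤ (Y.card : ℝ) * cent x := by positivity
        nlinarith
      exact h6.trans (h1.trans h5)
    exact Nat.le_of_mul_le_mul_left (by exact_mod_cast h4) hYpos

/-- the centralizer under an isomorphism -/
theorem cent_mulEquiv {A : Type u} {B : Type v} [Group A] [Group B] (e : A ≃* B) (a : A) : cent (e a) = cent a := by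
  refine Nat.card_congr ⟨fun y => ⟨e.symm y.1, ?_⟩, fun y => ⟨e y.1, ?_⟩, fun y => ?_, fun y => ?_⟩
  · rw [Subgroup.mem_centralizer_singleton_iff]
    have h := Subgroup.mem_centralizer_singleton_iff.1 y.2
    apply e.injective
    rw [map_mul, map_mul, MulEquiv.apply_symm_apply, h]
  · rw [Subgroup.mem_centralizer_singleton_iff]
    have h := Subgroup.mem_centralizer_singleton_iff.1 y.2
    rw [← map_mul, ← map_mul, h]
  · exact Subtype.ext (e.apply_symm_apply _)
  · exact Subtype.ext (e.symm_apply_apply _)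

/-- the end game: two bounds for centralizers -/
theorem not_oneZero_of_cent {S : Type u} [Group S] [Finite S] {Y : Type v} [Group Y] (e : S ≃* Y) {ψ : S → ℂ}
    (hψ : IsIrrCharacter S ψ) {s t : Y} {n : ℕ} (hs : ψ (e.symm s) = 0) (ht : ∃ k : ℤ, ψ (e.symm t) = n * k)
    (hst : ¬ IsConj s t) (h : cent t < cent s * (n ^ 2 - 1)) : ¬ OneZero ψ := by
  rintro ⟨x, hx0, hx⟩
  obtain ⟨k, hk⟩ := ht
  have h1 : One (⟨ψ, hψ⟩ : IrrCharacter S) (e.symm s) :=
    ⟨hs, fun g hg => (hx _ hs).symm.trans (hx g hg)⟩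
  have h2 : ¬ IsConj (e.symm s) (e.symm t) := by
    intro h2
    obtain ⟨c, hc⟩ := isConj_iff.1 h2
    apply hst
    refine isConj_iff.2 ⟨e c, ?_⟩
    apply e.symm.injective
    rw [map_mul, map_mul, map_inv, MulEquiv.symm_apply_apply, hc]
  have h3 := one_class_int h1 (k := n * k) (t := e.symm t) (by rw [show ((⟨ψ, hψ⟩ : IrrCharacter S) : S → ℂ) = ψ from rfl, hk]; push_cast; rfl)
    h2 (Dvd.intro _ rfl)
  rw [cent_mulEquiv, cent_mulEquiv] at h3
  omega

end Cfsg.Agent.H224.OZ
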