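import Cfsg.Agent.H224.OZ.Base
import Cfsg.Agent.H678.SuzGraph
import Cfsg.Agent.H438.SzMax
import Cfsg.Agent.H381.SzSpec

/-!
# S4842: the Suzuki groups (helper224)
-/

set_option autoImplicit false

open Cfsg Cfsg.Agent.H730.OZ

namespace Cfsg.Agent.H224.OZ

universe u

section arith

variable {k t a b : ℕ}

theorem cop_a (ha : a = 8 * k ^ 2 + 4 * k + 1) : Nat.Coprime a (8 * k) := by
  have h1 : Nat.Coprime a k := by
    rw [ha, show 8 * k ^ 2 + 4 * k + 1 = 1 + (8 * k + 4) * k by ring, Nat.coprime_add_mul_right_left]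
    exact Nat.coprime_one_left _
  have h2 : Nat.Coprime a 2 := by
    rw [Nat.coprime_two_right]
    exact ⟨4 * k ^ 2 + 2 * k, by rw [ha]; ring⟩
  exact Nat.Coprime.mul_right (by rw [show 8 = 2 ^ 3 by norm_num]; exact h2.pow_right 3) h1

theorem cop_b (hk : 1 ≤ k) (hb : b + 4 * k = 8 * k ^ 2 + 1) : Nat.Coprime b (8 * k) := by
  have hb' : b = 1 + (8 * k - 4) * k := by
    obtain ⟨c, rfl⟩ := Nat.exists_eq_add_of_le hk
    have h1 : 8 * (1 + c) - 4 = 8 * c + 4 := by omega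
    rw [h1]
    nlinarith
  have h1 : Nat.Coprime b k := by
    rw [hb', Nat.coprime_add_mul_right_left]
    exact Nat.coprime_one_left _
  have h2 : Nat.Coprime b 2 := by
    rw [Nat.coprime_two_right]
    exact ⟨(4 * k - 2) * k, by rw [hb', show 8 * k - 4 = 2 * (4 * k - 2) by omega]; ring⟩
  exact Nat.Coprime.mul_right (by rw [show 8 = 2 ^ 3 by norm_num]; exact h2.pow_right 3) h1

theorem cop_ab (hk : 1 ≤ k) (ha : a = 8 * k ^ 2 + 4 * k + 1) (hb : b + 4 * k = 8 * k ^ 2 + 1) : Nat.Coprime a b := by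
  have h1 : a = 8 * k + b := by omega
  rw [h1, Nat.coprime_add_self_left, Nat.coprime_comm]
  exact cop_b hk hb

theorem mul_ab (ha : a = 8 * k ^ 2 + 4 * k + 1) (hb : b + 4 * k = 8 * k ^ 2 + 1) :
    a * b = 64 * k ^ 4 + 1 := by
  have h1 : (a : ℤ) = 8 * k ^ 2 + 4 * k + 1 := by rw [ha]; push_cast; ring
  have h2 : (b : ℤ) = 8 * k ^ 2 - 4 * k + 1 := by
    have : ((b + 4 * k : ℕ) : ℤ) = ((8 * k ^ 2 + 1 : ℕ) : ℤ) := by rw [hb]
    push_cast at this
    linarith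
  have h3 : ((a * b : ℕ) : ℤ) = ((64 * k ^ 4 + 1 : ℕ) : ℤ) := by
    push_cast
    rw [h1, h2]
    ring
  exact_mod_cast h3

theorem cop_t (hk : 1 ≤ k) (ht : t + 1 = 8 * k ^ 2) : Nat.Coprime t (8 * k) ∧ Nat.Coprime t (64 * k ^ 4 + 1) := by
  have h2 : Nat.Coprime t 2 := by
    rw [Nat.coprime_two_right]
    obtain ⟨c, hc⟩ : ∃ c, 8 * k ^ 2 = 2 * c := ⟨4 * k ^ 2, by ring⟩
    have : 1 ≤ k ^ 2 := Nat.one_le_pow _ _ hk
    exact ⟨c - 1, by omega⟩
  refine ⟨Nat.Coprime.mul_right (by rw [show 8 = 2 ^ 3 by norm_num]; exact h2.pow_right 3) ?_, ?_⟩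
  · apply Nat.coprime_of_dvd
    intro r hr h3 h4
    have h5 : r ∣ t + 1 := by rw [ht]; exact dvd_mul_of_dvd_right (dvd_pow h4 (by norm_num)) _
    have h6 : r ∣ 1 := (Nat.dvd_add_right h3).1 h5
    exact hr.one_lt.ne' (Nat.dvd_one.1 h6)
  · have h3 : 64 * k ^ 4 + 1 = (t + 2) * t + 2 := by
      have : 64 * k ^ 4 = (t + 1) ^ 2 := by rw [ht]; ring
      rw [this]; ring
    rw [h3, Nat.coprime_mul_right_add_right]
    exact h2

/-- `t = 2 ^ (2 m + 1) - 1` is divisible by two primes or by a prime `r`, `3 ∣ r - 1`. -/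
theorem exists_r {m : ℕ} (hm : 1 ≤ m) (ht : t + 1 = 2 ^ (2 * m + 1)) :
    (∃ r s, r.Prime ∧ s.Prime ∧ r ≠ s ∧ r ∣ t ∧ s ∣ t) ∨ ∃ r, r.Prime ∧ r ∣ t ∧ 3 ∣ r - 1 := by
  have h8 : 8 ≤ 2 ^ (2 * m + 1) := by
    calc 8 = 2 ^ 3 := by norm_num
      _ ≤ 2 ^ (2 * m + 1) := Nat.pow_le_pow_right (by norm_num) (by omega)
  obtain ⟨r, hr, hrt⟩ := Nat.exists_prime_and_dvd (n := t) (by omega)
  by_cases h : ∃ s, s.Prime ∧ r ≠ s ∧ s ∣ t
  · obtain ⟨s, hs, hrs, hst⟩ := h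
    exact Or.inl ⟨r, s, hr, hs, hrs, hrt, hst⟩
  · push Not at h
    right
    refine ⟨r, hr, hrt, ?_⟩
    have h1 : t = r ^ t.primeFactorsList.length := Nat.eq_prime_pow_of_unique_prime_dvd (by omega) (fun {d} hd hdt => by
      by_contra hne
      exact h d hd (fun e => hne e.symm) hdt)
    set j := t.primeFactorsList.length
    -- modulo 4 and modulo 3
    have h4 : t % 4 = 3 := by
      have : 2 ^ (2 * m + 1) % 4 = 0 := by
        obtain ⟨m, rfl⟩ := Nat.exists_eq_add_of_le hm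
        rw [show 2 * (1 + m) + 1 = 2 + (2 * m + 1) by ring, pow_add]
        omega
      omega
    have h3 : t % 3 = 1 := by
      have : 2 ^ (2 * m + 1) % 3 = 2 := by
        rw [pow_succ, pow_mul, Nat.mul_mod, Nat.pow_mod]
        norm_num
      omega
    have hodd : r % 4 = 1 ∨ r % 4 = 3 := by
      have h2 : ¬ 2 ∣ r := fun h2 => by
        have := h2.trans hrt
        omega
      omega
    have hr3 : r % 3 = 1 ∨ r % 3 = 2 := by
      have h2 : ¬ 3 ∣ r := fun h2 => by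
        have := h2.trans hrt
        omega
      omega
    rcases Nat.even_or_odd j with ⟨c, hc⟩ | ⟨c, hc⟩
    · exfalso
      have h5 : r ^ j % 4 = 1 := by
        rw [hc, ← two_mul, pow_mul, Nat.pow_mod, pow_two, Nat.mul_mod]
        rcases hodd with h | h <;> rw [h] <;> norm_num
      omega
    · have h5 : r ^ j % 3 = r % 3 := by
        rw [hc, pow_succ, pow_mul, Nat.mul_mod, Nat.pow_mod, pow_two, Nat.mul_mod r r]
        rcases hr3 with h | h <;> rw [h] <;> norm_num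
      have := hr.one_lt
      omega

end arith

/-- **The Suzuki groups.** -/
theorem row_sz {S : Type u} [Group S] [Finite S] (_hs : IsSimpleGroup S) (h : Lie.IsoSuzuki S) : Row S := by
  obtain ⟨F, _, _, m, hm, hF, he⟩ := h
  intro χ hχ h0
  exfalso
  revert h0
  obtain ⟨k, hk⟩ : ∃ k, k = 2 ^ (m - 1) := ⟨_, rfl⟩
  have hk1 : 1 ≤ k := by rw [hk]; exact Nat.one_le_two_pow
  have hk2 : 1 ≤ k ^ 2 := Nat.one_le_pow _ _ hk1
  have hkk : k ≤ k ^ 2 := by nlinarith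
  obtain ⟨t, ht⟩ : ∃ t, t + 1 = 8 * k ^ 2 := ⟨8 * k ^ 2 - 1, by omega⟩
  obtain ⟨a, ha⟩ : ∃ a, a = 8 * k ^ 2 + 4 * k + 1 := ⟨_, rfl⟩
  obtain ⟨b, hb⟩ : ∃ b, b + 4 * k = 8 * k ^ 2 + 1 := ⟨8 * k ^ 2 + 1 - 4 * k, by omega⟩
  have hq : 2 ^ (2 * m + 1) = 8 * k ^ 2 := by
    obtain ⟨c, rfl⟩ := Nat.exists_eq_add_of_le hm
    rw [hk, Nat.add_sub_cancel_left]
    ring
  have hab := mul_ab ha hb
  have cab := cop_ab hk1 ha hb
  have ca := cop_a ha
  have cb := cop_b hk1 hb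
  obtain ⟨ct, ctab⟩ := cop_t hk1 ht
  rw [← hab] at ctab
  have cta : Nat.Coprime t a := ctab.coprime_dvd_right (Dvd.intro _ rfl)
  have ctb : Nat.Coprime t b := ctab.coprime_dvd_right (Dvd.intro_left _ rfl)
  have hcard : Nat.card S = (8 * k ^ 2) ^ 2 * t * (a * b) := by
    obtain ⟨e⟩ := he
    rw [Nat.card_congr e.toEquiv, H438.SzMax.card_sz hF, hq, hab]
    have h1 : 8 * k ^ 2 - 1 = t := by omega
    rw [h1]
    ring
  have p2 : ∀ {x : ℕ}, Nat.Coprime x (8 * k) → Nat.Coprime x ((8 * k ^ 2) ^ 2) := by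
    intro x hx
    have h1 : (8 * k ^ 2) ^ 2 ∣ (8 * k) ^ 4 := ⟨64, by ring⟩
    exact (hx.pow_right 4).coprime_dvd_right h1
  have hfac : ∀ {A B E : ℕ}, Nat.card S = A * B * E → A.Coprime B → A.Coprime E → B.Coprime E → A * B ∣ charDegree χ →
      1 < A → 1 < B → ¬ OneZero χ := fun h1 h2 h3 h4 h5 h6 h7 =>
    not_of_coprime hχ h1 h2 h3 h4 ((Dvd.intro _ rfl).trans h5) ((Dvd.intro_left _ rfl).trans h5) h6 h7
  have hdeg := (H678.SuzGraph.mem_charDegrees hm hF he k t a b hk ht ha hb (charDegree χ)).1 ⟨⟨χ, hχ⟩, rfl⟩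
  rcases hdeg with h | h | h | h | h | h
  · -- the principal character
    rintro ⟨x, hx, -⟩
    have h1 : χ 1 = 1 := by
      rw [← H686.CharKit.charDegree_cast (Characters.Core.isIrr_isCharacter hχ), h, Nat.cast_one]
    obtain ⟨φ, hφ⟩ := Characters.Linear.exists_hom_of_isIrrCharacter hχ h1
    rw [hφ] at hx
    exact (φ x).ne_zero hx
  · -- Steinberg
    obtain ⟨e⟩ := he
    obtain ⟨-, s, -, hs4, -⟩ := H381.SzSpec.exists_five (F := F) (m := m) hF
    have hs : orderOf (e.symm s) = 4 := by rw [MulEquiv.orderOf_eq, hs4]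
    have hs2 : orderOf (e.symm s ^ 2) = 2 := by
      rw [orderOf_pow_of_dvd (by norm_num) (by rw [hs]; norm_num), hs]
    have hA : Nat.card S = (8 * k ^ 2) ^ 2 * (t * (a * b)) := by rw [hcard]; ring
    have hAC : Nat.Coprime ((8 * k ^ 2) ^ 2) (t * (a * b)) :=
      Nat.Coprime.mul_right (p2 ct).symm (Nat.Coprime.mul_right (p2 ca).symm (p2 cb).symm)
    have hAd : (8 * k ^ 2) ^ 2 ∣ charDegree χ := ⟨1, by rw [h]; ring⟩
    have h2A : 2 ∣ (8 * k ^ 2) ^ 2 := ⟨32 * k ^ 4, by ring⟩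
    exact not_of_two (zero_of_factor hχ hA hAC hAd Nat.prime_two h2A (x := e.symm s) (by rw [hs]; norm_num))
      (zero_of_factor hχ hA hAC hAd Nat.prime_two h2A (x := e.symm s ^ 2) (by rw [hs2])) (by rw [hs, hs2]; norm_num)
  · refine hfac (A := a) (B := b) (E := (8 * k ^ 2) ^ 2 * t) (by rw [hcard]; ring) cab
      (Nat.Coprime.mul_right (p2 ca) cta.symm) (Nat.Coprime.mul_right (p2 cb) ctb.symm) (by rw [hab, h]) (by omega) (by omega)
  · refine hfac (A := t) (B := a) (E := (8 * k ^ 2) ^ 2 * b) (by rw [hcard]; ring) cta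
      (Nat.Coprime.mul_right (p2 ct) ctb) (Nat.Coprime.mul_right (p2 ca) cab) (by rw [h]) (by omega) (by omega)
  · refine hfac (A := t) (B := b) (E := (8 * k ^ 2) ^ 2 * a) (by rw [hcard]; ring) ctb
      (Nat.Coprime.mul_right (p2 ct) cta) (Nat.Coprime.mul_right (p2 cb) cab.symm) (by rw [h]) (by omega) (by omega)
  · -- `2 k (q - 1)`
    have hA : Nat.card S = t * ((8 * k ^ 2) ^ 2 * (a * b)) := by rw [hcard]; ring
    have hAC : Nat.Coprime t ((8 * k ^ 2) ^ 2 * (a * b)) := Nat.Coprime.mul_right (p2 ct) ctab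
    have hAd : t ∣ charDegree χ := by rw [h]; exact Dvd.intro _ rfl
    rcases exists_r hm (ht.trans hq.symm) with ⟨r, s, hr, hs, hrs, hrt, hst⟩ | ⟨r, hr, hrt, hr3⟩
    · exact not_of_factors hχ hA hAC hA hAC hAd hAd hr hs hrs hrt hst
    · obtain ⟨z, hz⟩ := exists_order (G := S) hr (by rw [hA]; exact dvd_mul_of_dvd_left hrt _)
      have hz0 := zero_of_factor hχ hA hAC hAd hr hrt (x := z) (by rw [hz])
      have h3 : ¬ r - 1 ∣ Nat.card S := by
        intro h1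
        have h2 := hr3.trans h1
        rw [hcard] at h2
        have h4 : (8 * k ^ 2) % 3 = 2 := by
          rw [← hq, pow_succ, pow_mul, Nat.mul_mod, Nat.pow_mod]
          norm_num
        have h5 : (8 * k ^ 2) ^ 2 % 3 = 1 := by rw [Nat.pow_mod, h4]
        have h6 : t % 3 = 1 := by omega
        have h7 : a * b % 3 = 2 := by
          rw [hab, show 64 * k ^ 4 = (8 * k ^ 2) ^ 2 by ring]
          omega
        rcases (Nat.Prime.dvd_mul Nat.prime_three).1 h2 with h8 | h8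
        · rcases (Nat.Prime.dvd_mul Nat.prime_three).1 h8 with h9 | h9 <;> omega
        · omega
      have h4 : ∃ y ∈ Subgroup.zpowers z, orderOf y = r ∧ ¬ IsConj z y := by
        by_contra hcon
        push Not at hcon
        exact h3 (sub_one_dvd hr hz hcon)
      obtain ⟨y, -, hy, hzy⟩ := h4
      exact not_of_nconj hz0 (zero_of_factor hχ hA hAC hAd hr hrt (x := y) (by rw [hy])) hzy

end Cfsg.Agent.H224.OZ
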